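import Cfsg.Agent.H881.Wrap

/-!
Final assembly for the tensor-wreath subgroups of `SU_n(q)`.
-/

set_option autoImplicit false
set_option linter.unusedSectionVars false

namespace Cfsg.Agent.H881

open Module Matrix Cfsg.Agent.ClassicalGeometry Cfsg.Agent.H880 Cfsg.Agent.H919 Cfsg.Geo
open Cfsg.Agent.LieClassical.HermBasic

section Over

variable {F : Type*} [Field F] [Fintype F] {q k s : ℕ}

/-- All unitary elements of determinant one of the standard tensor-wreath group lie in `M`. -/
structure OverW (σ : F →+* F) (M : Subgroup (Matrix.GeneralLinearGroup (Fin (s + 1) → Fin k) F)) : Prop where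
  iso : ∀ g ∈ M, ((g : Matrix (Fin (s + 1) → Fin k) (Fin (s + 1) → Fin k) F).map σ)ᵀ *
    (g : Matrix (Fin (s + 1) → Fin k) (Fin (s + 1) → Fin k) F) = 1
  det : ∀ g ∈ M, (g : Matrix (Fin (s + 1) → Fin k) (Fin (s + 1) → Fin k) F).det = 1
  ge : ∀ g ∈ tensorWreathStandard k (s + 1) F, ((g : Matrix (Fin (s + 1) → Fin k) (Fin (s + 1) → Fin k) F).map σ)ᵀ *
    (g : Matrix (Fin (s + 1) → Fin k) (Fin (s + 1) → Fin k) F) = 1 →
    (g : Matrix (Fin (s + 1) → Fin k) (Fin (s + 1) → Fin k) F).det = 1 → g ∈ M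

theorem slotMat_det {A : Matrix (Fin k) (Fin k) F} (hA : A.det = 1) (i : Fin (s + 1)) :
    (slotMat i A : Matrix (Fin (s + 1) → Fin k) (Fin (s + 1) → Fin k) F).det = 1 := by
  have hu : IsUnit A.det := by rw [hA]; exact isUnit_one
  let z : (Fin k → F) ≃ₗ[F] (Fin k → F) := Matrix.toLinearEquiv' A (Matrix.invertibleOfIsUnitDet A hu)
  have hz : (z : (Fin k → F) →ₗ[F] (Fin k → F)) = A.mulVecLin := rfl
  have h1 : ((ofMat (Psi F k i) (rowE (k ^ s) z) : Matrix.GeneralLinearGroup (Fin (s + 1) → Fin k) F) :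
      Matrix (Fin (s + 1) → Fin k) (Fin (s + 1) → Fin k) F) = slotMat i A := by
    apply dM_inj i
    rw [ofMat_dM, dM_slot]
    rfl
  rw [← h1, ofMat_det, rowE_det]
  have h2 : LinearMap.det (z : (Fin k → F) →ₗ[F] (Fin k → F)) = 1 := by
    rw [hz, ← hA]
    exact LinearMap.det_toLin' A
  rw [h2, one_pow]

theorem overT_of_overW {σ : F ≃+* F} {M : Subgroup (Matrix.GeneralLinearGroup (Fin (s + 1) → Fin k) F)}
    (hM : OverW (σ : F →+* F) M) : OverT (σ : F →+* F) M where
  iso := hM.iso
  slot i A hA hAd := by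
    have hu : A.det ≠ 0 := by rw [hAd]; exact one_ne_zero
    let A' : Matrix.GeneralLinearGroup (Fin k) F := Matrix.GeneralLinearGroup.mkOfDetNeZero A hu
    have hA' : (A' : Matrix (Fin k) (Fin k) F) = A := rfl
    let x : Fin (s + 1) → Matrix.GeneralLinearGroup (Fin k) F := Function.update (fun _ => 1) i A'
    have hx : (fun j => (x j : Matrix (Fin k) (Fin k) F)) = Function.update (fun _ => 1) i A := by
      funext j
      by_cases hj : j = i
      · subst hj
        simp only [x, Function.update_self, hA']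
      · simp only [x, Function.update_of_ne hj, Units.val_one]
    have hval : (pureGL x : Matrix (Fin (s + 1) → Fin k) (Fin (s + 1) → Fin k) F) = slotMat i A := by
      rw [pureGL_val, hx]
      rfl
    refine ⟨pureGL x, hM.ge _ (pureGL_mem x) ?_ (by rw [hval]; exact slotMat_det hAd i), hval⟩
    rw [hval]
    have h1 : ((slotMat i A : Matrix (Fin (s + 1) → Fin k) (Fin (s + 1) → Fin k) F).map (σ : F →+* F))ᵀ =
        slotMat i ((A.map σ)ᵀ) := by
      have h2 : (slotMat i A : Matrix (Fin (s + 1) → Fin k) (Fin (s + 1) → Fin k) F).map (σ : F →+* F) =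
          pureMat (fun j => (Function.update (fun _ : Fin (s + 1) => (1 : Matrix (Fin k) (Fin k) F)) i A j).map σ) :=
        H921.pureMat_map σ _
      rw [h2, H922.pureMat_transpose, slotMat]
      congr 1
      funext j
      by_cases hj : j = i
      · subst hj
        rw [Function.update_self, Function.update_self]
      · rw [Function.update_of_ne hj, Function.update_of_ne hj]
        simp
    have h2 : (A.map σ)ᵀ * A = 1 := hA
    rw [h1, ← slotMat_mul, h2, slotMat_one]
  perm π hπ := by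
    apply hM.ge _ (facPerm_mem π) _ (facPerm_det π hπ)
    have h1 : (facPerm F k π : Matrix (Fin (s + 1) → Fin k) (Fin (s + 1) → Fin k) F).map (σ : F →+* F) = facPerm F k π :=
      H921.facPerm_map σ π
    rw [h1, H922.facPerm_transpose, ← Units.val_mul, inv_mul_cancel, Units.val_one]

/-- **Part A for `t = 2`.** -/
theorem partA_two {σ : F ≃+* F} (hσ : (σ : F →+* F) ≠ RingHom.id F) (hσ2 : ∀ x : F, σ (σ x) = x) (hk : 4 ≤ k)
    {M : Subgroup (Matrix.GeneralLinearGroup (Fin (1 + 1) → Fin k) F)} (hM : OverW (σ : F →+* F) M) :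
    LayerT (σ : F →+* F) M ∨ TransvT (σ : F →+* F) M := by
  have hT := overT_of_overW hM
  by_cases hL : LayerT (σ : F →+* F) M
  · exact Or.inl hL
  right
  unfold LayerT at hL
  push Not at hL
  obtain ⟨i, w, hw0, hw, K, hK, ⟨g, hg, hgK⟩, hKs⟩ := hL
  obtain ⟨κ, hκ⟩ := comm_slot (by omega) i hK
  set M' := M.comap (ofMat (Psi F k i)) with hM'
  have hmem : ∀ γ, γ ∈ M' ↔ ofMat (Psi F k i) γ ∈ M := fun γ => Iff.rfl
  have hw' : stB (σ : F →+* F) k w w = 0 := by rw [stB_apply]; exact hw
  -- `M'` is an overgroup of the tensor stabiliser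
  obtain ⟨j, hji, hj⟩ : ∃ j : Fin (1 + 1), j ≠ i ∧ ∀ m ≠ j, m = i := by
    fin_cases i
    · exact ⟨1, by decide, fun m hm => by fin_cases m <;> simp_all⟩
    · exact ⟨0, by decide, fun m hm => by fin_cases m <;> simp_all⟩
  have hten : ∀ γ : Mat (k ^ 1) k F ≃ₗ[F] Mat (k ^ 1) k F, IsTens γ →
      ofMat (Psi F k i) γ ∈ tensorWreathStandard k (1 + 1) F := by
    intro γ hγ
    apply mem_tensorWreathStandard (by omega) (by omega) _ 1
    intro m x
    have h1 : ∀ Z, dM i (((ofMat (Psi F k i) γ : Matrix.GeneralLinearGroup (Fin (1 + 1) → Fin k) F) :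
        Matrix (Fin (1 + 1) → Fin k) (Fin (1 + 1) → Fin k) F) * Z *
        (((ofMat (Psi F k i) γ)⁻¹ : Matrix.GeneralLinearGroup (Fin (1 + 1) → Fin k) F) :
          Matrix (Fin (1 + 1) → Fin k) (Fin (1 + 1) → Fin k) F)) = cj γ (dM i Z) := by
      intro Z
      rw [dM_mul, dM_mul, ← map_inv, ofMat_dM, ofMat_dM]
      rfl
    by_cases hm : m = i
    · subst hm
      obtain ⟨T', hT'⟩ := tens_conj_row hγ x.mulVecLin
      refine ⟨LinearMap.toMatrix' T', ?_⟩
      apply dM_inj m
      rw [h1, Equiv.Perm.one_apply, ← row_eq_dM, dM_slot]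
      exact LinearMap.ext hT'
    · have hmj : m = j := by
        by_contra hne
        exact hm (hj m hne)
      subst hmj
      obtain ⟨Y, hY⟩ := comm_slot (by omega) i (K := slotMat m x) (fun y => slotMat_commute hji x y)
      obtain ⟨Y', hY'⟩ := tens_conj_col hγ Y
      rw [Equiv.Perm.one_apply]
      apply slot_of_comm hσ hσ2 (by omega) hT m
      intro m' hm' y
      rw [hj m' hm']
      apply slot_comm i (Y := Y')
      rw [h1, hY]
      exact LinearMap.ext hY'
  have hOver : Over (σ : F →+* F) M' :=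
    { iso := fun γ hγ X Y => by
        rw [BV_Psi i, BV_Psi i, ← ofMat_mulVec, ← ofMat_mulVec]
        exact unit_iso (hT.iso _ ((hmem γ).mp hγ)) _ _
      det := fun γ hγ => by
        rw [← ofMat_det (Psi F k i)]
        exact hM.det _ ((hmem γ).mp hγ)
      ge := fun γ h5 h6 h7 => by
        rw [hmem]
        refine hM.ge _ (hten γ h7) (iso_unit' fun x y => ?_) (by rw [ofMat_det, h6])
        obtain ⟨X, rfl⟩ := (Psi F k i).surjective x
        obtain ⟨Y, rfl⟩ := (Psi F k i).surjective y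
        rw [ofMat_mulVec, ofMat_mulVec, ← BV_Psi, ← BV_Psi, h5] }
  have hInK : InK (σ : F →+* F) M' w κ := by
    obtain ⟨γ, hγ⟩ := ofMat_surjective (Psi F k i) g
    refine ⟨γ, by rw [hmem, hγ]; exact hg, fun X => ?_⟩
    have h1 : (γ : Mat (k ^ 1) k F →ₗ[F] Mat (k ^ 1) k F) = LinearMap.id + colL k κ ∘ₗ rowL (k ^ 1) (phi (σ : F →+* F) w) := by
      rw [← ofMat_dM, hγ, hgK, dM_add, dM_one, dM_mul, hκ, dM_slot, ← phi_mat]
    have h2 := LinearMap.congr_fun h1 X
    have h3 : γ X = X + colL k κ (rowL (k ^ 1) (phi (σ : F →+* F) w) X) := h2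
    rw [h3, rowL_phi, colL_pure]
  have hκs : ¬ ∃ c : F, ∀ x, κ x = c • x := by
    rintro ⟨c, hc⟩
    apply hKs c
    apply dM_inj i
    rw [hκ, dM_smul, dM_one]
    apply ext_pure
    intro u v
    rw [colL_pure, hc]
    show _ = c • vecMulVec u v
    rw [Matrix.smul_vecMulVec]
  have hk1 : k ^ 1 = k := pow_one k
  have hall := gen_all hσ hσ2 (show 2 ≤ k ^ 1 by omega) hk hOver (fun u' w' hu' hw'' =>
    claimA hσ hσ2 (show 2 ≤ k ^ 1 by omega) (by omega) (Or.inl (by omega)) hOver hw0 hw' hInK hκs u' w' hu' hw'')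
  intro v hv l hl
  obtain ⟨X, rfl⟩ := (Psi F k i).surjective v
  obtain ⟨γ, hγ, hγx⟩ := (hall X (by rw [BV_Psi i]; exact hv)).2 l hl
  refine ⟨ofMat (Psi F k i) γ, hγ, ?_⟩
  apply Matrix.mulVec_injective
  funext y
  obtain ⟨Y, rfl⟩ := (Psi F k i).surjective y
  rw [ofMat_mulVec, hγx, map_add, map_smul, Matrix.add_mulVec, Matrix.one_mulVec, Matrix.smul_mulVec,
    Matrix.vecMulVec_mulVec, BV_Psi i, mul_smul]
  congr 2
  funext f
  show _ * _ = _ * _
  rw [mul_comm]
  rfl

end Over

section Main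

variable {F : Type*} [Field F] [Fintype F] {n q : ℕ}

/-- **Maximality of the tensor-wreath stabilisers in `SU_n(q)`, given part A.** -/
theorem wreath_maximal (hF : Fintype.card F = q ^ 2) {k s : ℕ} (hk : 3 ≤ k) (hs : 1 ≤ s)
    (hex : ¬ (q = 2 ∧ k = 3)) (e : Fin n ≃ (Fin (s + 1) → Fin k)) (P : Matrix.GeneralLinearGroup (Fin n) F)
    (f₁ : (Fin k → F) → (Fin k → F) → F) (hf₁ : IsUnitaryFormPow q f₁)
    (hT : IsTensorPowerFormStructure (fun x : F => x ^ q) (Cfsg.hermForm n F q) f₁ e P)
    (hA : ∀ M : Subgroup (Matrix.GeneralLinearGroup (Fin (s + 1) → Fin k) F), OverW ((conj hF : F ≃+* F) : F →+* F) M →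
      LayerT ((conj hF : F ≃+* F) : F →+* F) M ∨ TransvT ((conj hF : F ≃+* F) : F →+* F) M) :
    IsMaximalIn (Cfsg.GU n F q ⊓ Cfsg.Geo.specialLinear (Fin n) F)
      (tensorWreathSubgroup k (s + 1) e P ⊓ (Cfsg.GU n F q ⊓ Cfsg.Geo.specialLinear (Fin n) F)) := by
  set σ : F →+* F := ((conj hF : F ≃+* F) : F →+* F) with hσ_def
  have hσx : ∀ x, σ x = x ^ q := fun x => rfl
  have hσ : σ ≠ RingHom.id F := by
    intro h
    obtain ⟨x, hx⟩ := exists_not_fixed hF
    exact hx (by rw [← hσx, h]; rfl)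
  have hσ2 : ∀ x, σ (σ x) = x := fun x => by rw [hσx, hσx, pow_q_pow_q hF]
  have hn9 : 9 ≤ n := by
    have h := Fintype.card_congr e
    rw [Fintype.card_fin, Fintype.card_fun, Fintype.card_fin, Fintype.card_fin] at h
    rw [h]
    calc 9 = 3 ^ 2 := by norm_num
      _ ≤ k ^ 2 := Nat.pow_le_pow_left hk 2
      _ ≤ k ^ (s + 1) := Nat.pow_le_pow_right (by omega) (by omega)
  obtain ⟨P', c, hc0, hcq, hform, hPP'⟩ := exists_std hF (by omega) e P f₁ hf₁ hT
  rw [← hPP']
  have hqk : 4 ≤ k ∨ ∃ c : F, c ≠ 0 ∧ σ c * c ≠ 1 := by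
    by_cases h4 : 4 ≤ k
    · exact Or.inl h4
    · right
      have hq3 : 3 ≤ q := by
        have := two_le hF
        by_contra hlt
        exact hex ⟨by omega, by omega⟩
      by_contra hcon
      push Not at hcon
      have hcard := card_fixed hF
      have hle : Nat.card {x : F // x ^ q = x} ≤ 2 := by
        classical
        have hsub : ∀ x : {x : F // x ^ q = x}, (x : F) = 0 ∨ (x : F) = 1 := by
          intro x
          by_cases h0 : (x : F) = 0
          · exact Or.inl h0
          · right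
            obtain ⟨d, hd0, hd⟩ := HermWitt.norm_surj σ hσ hσ2 (x : F) (by rw [hσx]; exact x.2) h0
            rw [← hd, mul_comm]
            exact hcon d hd0
        let φ : {x : F // x ^ q = x} → Bool := fun x => decide ((x : F) = 0)
        have hφ : Function.Injective φ := by
          intro x y hxy
          have h5 : ((x : F) = 0) ↔ ((y : F) = 0) := by simpa [φ] using hxy
          apply Subtype.ext
          rcases hsub x with hx | hx
          · rw [hx, h5.mp hx]
          · rcases hsub y with hy | hy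
            · rw [h5.mpr hy] at hx
              exact absurd hx zero_ne_one
            · rw [hx, hy]
        have := Nat.card_le_card_of_injective φ hφ
        simpa using this
      omega
  have hmemf : ∀ g, frameGL e P' g ∈ tensorWreathSubgroup k (s + 1) e P' ↔ g ∈ tensorWreathStandard k (s + 1) F := by
    intro g
    rw [mem_tensorWreathSubgroup_iff]
    constructor
    · rintro ⟨g', hg', h⟩
      rwa [← (frameGL e P').injective h]
    · intro hg
      exact ⟨g, hg, rfl⟩
  refine ⟨lt_of_le_of_ne inf_le_right ?_, ?_⟩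
  · intro h
    have h5 : H918.SUg n F q ≤ tensorWreathSubgroup k (s + 1) e P' := by
      have h6 : H918.SUg n F q = tensorWreathSubgroup k (s + 1) e P' ⊓
        (Cfsg.GU n F q ⊓ Cfsg.Geo.specialLinear (Fin n) F) := h.symm
      rw [h6]
      exact inf_le_left
    obtain ⟨g, hg, hg'⟩ := H918.exists_rankOne_mem hF (n := n) (by omega)
    exact H918.not_le_tensorWreathSubgroup hg hg' hk (by omega) e P' h5
  · intro M hHM hM
    let M' : Subgroup (Matrix.GeneralLinearGroup (Fin (s + 1) → Fin k) F) := M.comap (frameGL e P').toMonoidHom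
    have hM'mem : ∀ g, g ∈ M' ↔ frameGL e P' g ∈ M := fun g => Iff.rfl
    have hW : OverW σ M' :=
      { iso := fun g hg => ((mem_SUg_frame hF hc0 hform g).mp (hM ((hM'mem g).mp hg))).1
        det := fun g hg => ((mem_SUg_frame hF hc0 hform g).mp (hM ((hM'mem g).mp hg))).2
        ge := fun g hg h1 h2 => by
          rw [hM'mem]
          exact hHM ⟨(hmemf g).mpr hg, (mem_SUg_frame hF hc0 hform g).mpr ⟨h1, h2⟩⟩ }
    rcases hA M' hW with hL | hTr
    · left
      refine le_antisymm (fun g hg => ⟨?_, hM hg⟩) hHM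
      obtain ⟨γ, rfl⟩ := (frameGL e P').surjective g
      refine (hmemf γ).mpr ?_
      exact wreath_of_layer hσ hσ2 hk hs hqk (overT_of_overW hW) hL ((hM'mem γ).mpr hg)
    · right
      refine le_antisymm hM ?_
      apply H918.SUg_le_of_tv hF (by omega)
      intro v c' hv hc'
      obtain ⟨w, rfl⟩ := frame_surj e P' v
      have hsw : ∀ x y : (Fin (s + 1) → Fin k) → F, ∑ f, x f * (y f) ^ q = ∑ f, σ (y f) * x f := by
        intro x y
        refine Finset.sum_congr rfl fun f _ => ?_
        rw [mul_comm]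
        rfl
      obtain ⟨γ, hγ, hγw⟩ := hTr w (by
        rw [hform, hsw] at hv
        exact (mul_eq_zero.mp hv).resolve_left hc0) (c * c') (by
        rw [hσx, mul_pow, hcq]
        linear_combination c * hc')
      have h5 : frameGL e P' γ = H918.tv hF ((P' : Matrix (Fin n) (Fin n) F) *ᵥ (w ∘ e)) c' hv hc' := by
        apply Units.ext
        apply Matrix.mulVec_injective
        funext x
        obtain ⟨y, rfl⟩ := frame_surj e P' x
        rw [frameGL_mv, H918.tv_mulVec, hγw, hform, hsw, Matrix.add_mulVec, Matrix.one_mulVec, Matrix.smul_mulVec,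
          Matrix.vecMulVec_mulVec]
        have h6 : (y + (c * c') • (MulOpposite.op ((⇑σ ∘ w) ⬝ᵥ y) • w)) ∘ e =
            y ∘ e + (c' * (c * ∑ f, σ (w f) * y f)) • (w ∘ e) := by
          funext i
          show y (e i) + (c * c') * (w (e i) * ((⇑σ ∘ w) ⬝ᵥ y)) = y (e i) + (c' * (c * ∑ f, σ (w f) * y f)) * w (e i)
          have h7 : (⇑σ ∘ w) ⬝ᵥ y = ∑ f, σ (w f) * y f := rfl
          rw [h7]
          ring
        rw [h6, Matrix.mulVec_add, Matrix.mulVec_smul]
      rw [← h5]
      exact hγ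

end Main

end Cfsg.Agent.H881
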